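import Mathlib

/-!
# S4879, the Monster, `p = 11`: the combinatorial data (helper34)

`MDat ι` : `ι` = the members of the principal 11-block of the Monster, `q` = the rows (in the basis
`1, 45, -54, -120, 144` of the principal 11-block of `M12`), `c` = the seven known characters
`1, 196883, 842609326, 36173193327999, 1109944460516150, 251098487132187500, 47377503606648784400`,
`a` = the multiplicities of the characters of degrees `1, 8, 6` of `L3(2)` in `C(17A) = 17 × L3(2)`.
-/

set_option autoImplicit false

namespace Cfsg.Agent.H34.LB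

open scoped BigOperators

/-- the values of the basis at `1` -/
def f1 : Fin 5 → ℤ := ![1, 45, -54, -120, 144]

/-- the values of the basis at the involutions of class 2A of `M12` -/
def f2 : Fin 5 → ℤ := ![1, 5, -6, 0, 4]

/-- the values of the basis at the involutions of class 2B of `M12` -/
def f2B : Fin 5 → ℤ := ![1, -3, -6, 8, 0]

/-- the degrees of the known characters -/
def dg : Fin 7 → ℤ := ![1, 196883, 842609326, 36173193327999, 1109944460516150, 251098487132187500, 47377503606648784400]

/-- the values of the known characters at the involutions of class 2A of the Monster -/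
def v2 : Fin 7 → ℤ := ![1, 4371, 1139374, 1354188159, 9697078070, 336140827500, 7170718631440]

/-- the values of `a` at the known characters -/
def ka : Fin 3 → Fin 7 → ℤ := ![![1, 0, 0, 0, 1, -1, 0], ![0, 0, 1, 0, 0, 0, 0], ![0, 1, 0, 0, 0, 0, 0]]

/-- the data; `g2` = the values of the basis at an involution of `M12` which is in class 2A of the Monster -/
structure MDatG (g2 : Fin 5 → ℤ) (ι : Type*) [Fintype ι] where
  q : ι → Fin 5 → ℤ
  gram : ∀ i j, ∑ x, q x i * q x j = 11 * ((if i = j then 1 else 0) + 2)
  c : Fin 7 → ι
  inj : Function.Injective c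
  one : q (c 0) = ![1, 0, 0, 0, 0]
  cong1 : ∀ n, (121 : ℤ) ∣ dg n - ∑ j, q (c n) j * f1 j
  cong2 : ∀ n, (11 : ℤ) ∣ v2 n - ∑ j, q (c n) j * g2 j
  a : Fin 3 → ι → ℤ
  ha : ∀ t x, a t x = 0 ∨ a t x = 1 ∨ a t x = -1
  disj : ∀ s t, s ≠ t → ∀ x, a s x * a t x = 0
  rel : ∀ t j, ∑ x, a t x * q x j = 0
  known : ∀ t n, a t (c n) = ka t n

abbrev MDat (ι : Type*) [Fintype ι] := MDatG f2 ι

/-- the numerical statement -/
def MNum : Prop := ∀ (ι : Type) [Fintype ι], Fintype.card ι ≤ 15 → MDat ι → False

/-- the numerical statement, second case (then the class of the involution in `M12` does not matter) -/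
def MNumB : Prop := ∀ (ι : Type) [Fintype ι], Fintype.card ι ≤ 15 → MDatG f2B ι → False

end Cfsg.Agent.H34.LB
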